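import Mathlib
import Cfsg.Prelude.Def_TwoFusion
import Cfsg.Agent.Lib.PGrp.Basic
import Cfsg.Agent.Lib.Transfer.Basic2

/-!
# Strongly closed subgroups and normal `p`-complements
-/

set_option autoImplicit false
set_option linter.unusedSectionVars false

namespace Cfsg.Agent.Transfer

open Cfsg Subgroup
open scoped Pointwise

variable {G : Type*} [Group G] [Finite G] {p : ℕ} [hp : Fact p.Prime]

theorem normalizer_le_normalizer_centralizer' (X : Subgroup G) :
    normalizer (X : Set G) ≤ normalizer ((centralizer (X : Set G) : Subgroup G) : Set G) :=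
  fun g hg => by
    rw [← conj_smul_eq_iff_mem_normalizer, ← centralizer_conj_smul,
      conj_smul_eq_iff_mem_normalizer.2 hg]

/-- Frattini argument for a strongly closed subgroup. -/
theorem frattini_of_isStronglyClosed {S D M C : Subgroup G} (hD : IsStronglyClosed D S)
    (hS : IsSylowIn p (S ⊓ M) M) (hCM : C ≤ M) (hMC : M ≤ normalizer (C : Set G)) {m : G}
    (hm : m ∈ M) : ∃ c ∈ C, ∃ n ∈ normalizer ((D ⊓ C : Subgroup G) : Set G), m = c * n := by
  have h1 := hS.inf_of_le_normalizer hMC
  rw [inf_eq_right.2 hCM] at h1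
  obtain ⟨c, hc, y, hy, rfl⟩ := h1.frattini hMC hm
  refine ⟨c, hc, y, mem_normalizer_of_conj_mem fun x hx => ?_, rfl⟩
  have := (mem_normalizer_iff.1 hy x).1 ⟨⟨hD.1 hx.1, hCM hx.2⟩, hx.2⟩
  exact ⟨hD.2 x hx.1 y this.1.1, this.2⟩

theorem mem_centralizer_of_eq_mul {X Y : Subgroup G} (hX : IsPGroup p X) (hXY : X ≤ Y)
    (hY : HasNormalPComplement p Y) {m c n : G} (hm : m ∈ normalizer (X : Set G))
    (hmp : (orderOf m).Coprime p) (hc : c ∈ centralizer (X : Set G)) (hn : n ∈ Y)
    (h : m = c * n) : m ∈ centralizer (X : Set G) := by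
  have hcN : c ∈ normalizer (X : Set G) := centralizer_le_normalizer _ hc
  have hnN : n ∈ normalizer (X : Set G) := by
    have := (normalizer (X : Set G)).mul_mem (inv_mem hcN) hm
    rwa [h, inv_mul_cancel_left] at this
  obtain ⟨k, hk⟩ := exists_pow_pow_coprime (p := p) n
  have h1 := mem_centralizer_of_hasNormalPComplement hX hXY hY (pow_mem hn _) (pow_mem hnN _) hk
  let f := normalizerMonoidHom X
  have hker : ∀ (x : G) (hx : x ∈ normalizer (X : Set G)),
      f ⟨x, hx⟩ = 1 ↔ x ∈ centralizer (X : Set G) := fun x hx => by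
    rw [← MonoidHom.mem_ker, normalizerMonoidHom_ker]; rfl
  have h2 : f ⟨m, hm⟩ = f ⟨n, hnN⟩ := by
    have : (⟨m, hm⟩ : normalizer (X : Set G)) = ⟨c, hcN⟩ * ⟨n, hnN⟩ := Subtype.ext h
    rw [this, map_mul, (hker c hcN).2 hc, one_mul]
  refine (hker m hm).1 (eq_one_of_coprime_of_pow_pow (p := p) (k := k) ?_ ?_)
  · refine Nat.Coprime.coprime_dvd_left (orderOf_map_dvd f _) ?_
    rwa [← orderOf_coe]
  · rw [h2, ← map_pow]
    exact (hker _ (pow_mem hnN _)).2 h1

theorem sylow_le_normalizer_of_isStronglyClosed {S D : Subgroup G} (hD : IsStronglyClosed D S) :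
    S ≤ normalizer (D : Set G) := fun g hg => mem_normalizer_of_conj_mem fun x hx =>
  hD.2 x hx g (S.mul_mem (S.mul_mem hg (hD.1 hx)) (S.inv_mem hg))

/-- Frobenius' criterion only needs the nontrivial subgroups of a nontrivial strongly closed
subgroup. -/
theorem frobenius_of_isStronglyClosed (S : Sylow p G) {D : Subgroup G}
    (hD : IsStronglyClosed D (S : Subgroup G)) (hD1 : D ≠ ⊥)
    (h : ∀ V : Subgroup G, V ≤ D → V ≠ ⊥ → HasNormalPComplement p (normalizer (V : Set G))) :
    HasNormalPComplement p G := by
  refine hasNormalPComplement_of_tame S fun Q _ hQ g hg hgp => ?_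
  set X := (S : Subgroup G) ⊓ Q with hX
  obtain ⟨c, hc, n, hn, hgcn⟩ := frattini_of_isStronglyClosed hD
    ((isSylowIn_inf_iff S.2).2 hQ.1) (centralizer_le_normalizer (X : Set G))
    (normalizer_le_normalizer_centralizer' X) hg
  have hW : D ⊓ centralizer (X : Set G) ≠ ⊥ := by
    intro h0
    refine PGrp.inf_centralizer_ne_bot S.2 (S.2.to_le hD.1)
      (sylow_le_normalizer_of_isStronglyClosed hD) hD1 (eq_bot_iff.2 ?_)
    rw [← h0]
    exact inf_le_inf_left _ (centralizer_le (fun x hx => hx.1))
  refine mem_centralizer_of_eq_mul (S.2.to_le inf_le_left) ?_ (h _ inf_le_left hW) hg hgp hc hn hgcn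
  intro x hx
  refine centralizer_le_normalizer _ (mem_centralizer_iff.2 fun y hy => ?_)
  exact (mem_centralizer_iff.1 hy.2 x hx).symm

theorem frobenius_of_isStronglyClosed_of_centric (S : Sylow p G) {D : Subgroup G}
    (hD : IsStronglyClosed D (S : Subgroup G))
    (h : ∀ U : Subgroup G, U ≤ D → D ⊓ centralizer (U : Set G) ≤ U →
      HasNormalPComplement p (normalizer (U : Set G))) : HasNormalPComplement p G := by
  have key : ∀ n, ∀ U : Subgroup G, U ≤ D → Nat.card G - Nat.card U = n →
      HasNormalPComplement p (normalizer (U : Set G)) := by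
    intro n
    induction n using Nat.strong_induction_on with | _ n ih => ?_
    intro U₀ hU₀ hn
    obtain ⟨S', hS'1, hS'2⟩ := exists_sylow_inf_isSylowIn (S.2.to_le (hU₀.trans hD.1))
      (le_normalizer (H := U₀))
    obtain ⟨g, rfl⟩ := MulAction.exists_smul_eq G S' S
    set U := MulAut.conj g • U₀ with hU
    have hUS : U ≤ (g • S' : Sylow p G) := conj_smul_mono g hS'1
    have hUD : U ≤ D := conj_smul_le_iff.2 fun x hx =>
      hD.2 x (hU₀ hx) g (hUS (conj_mem_conj_smul hx))
    have hSyl : IsSylowIn p (((g • S' : Sylow p G) : Subgroup G) ⊓ normalizer (U : Set G))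
        (normalizer (U : Set G)) := by
      have := hS'2.conj_smul g
      rwa [Subgroup.smul_inf, ← normalizer_conj_smul] at this
    have hcard : Nat.card U = Nat.card U₀ := card_conj_smul g U₀
    suffices hs : HasNormalPComplement p (normalizer (U : Set G)) by
      have := hasNormalPComplement_conj_smul g⁻¹ hs
      rwa [← normalizer_conj_smul, hU, conj_inv_smul_conj_smul] at this
    by_cases hc : D ⊓ centralizer (U : Set G) ≤ U
    · exact h U hUD hc
    have ih' : ∀ V : Subgroup G, U < V → V ≤ D → HasNormalPComplement p (normalizer (V : Set G)) := by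
      intro V hUV hVD
      have h1 := PGrp.card_lt_of_lt hUV
      have h2 := card_le_card_group V
      exact ih _ (by omega) V hVD rfl
    set L := normalizer (U : Set G) with hL
    have hUp : IsPGroup p U := (g • S').2.to_le hUS
    -- `p'`-elements of `L` centralize `U`
    have hcent : ∀ m ∈ L, (orderOf m).Coprime p → m ∈ centralizer (U : Set G) := by
      intro m hm hmp
      obtain ⟨c, hc', n, hn', hmcn⟩ := frattini_of_isStronglyClosed hD hSyl
        (centralizer_le_normalizer (U : Set G))
        (normalizer_le_normalizer_centralizer' U) hm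
      refine mem_centralizer_of_eq_mul hUp (le_sup_left.trans le_normalizer)
        (ih' (U ⊔ D ⊓ centralizer (U : Set G)) (left_lt_sup.2 hc) (sup_le hUD inf_le_left))
        hm hmp hc' ?_ hmcn
      have hnL : n ∈ L := by
        have := L.mul_mem (inv_mem (centralizer_le_normalizer _ hc')) hm
        rwa [hmcn, inv_mul_cancel_left] at this
      rw [← conj_smul_eq_iff_mem_normalizer, Subgroup.smul_sup,
        conj_smul_eq_iff_mem_normalizer.2 hnL, conj_smul_eq_iff_mem_normalizer.2 hn']
    -- the quotient `L / U` is `p`-nilpotent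
    let U' : Subgroup L := U.subgroupOf L
    have hU'n : U'.Normal := normal_in_normalizer
    let π := QuotientGroup.mk' U'
    have hπ : Function.Surjective π := QuotientGroup.mk'_surjective U'
    have hcomap : ∀ (A : Subgroup G), U ≤ A → ∀ x : L, π x ∈ (A.subgroupOf L).map π → (x : G) ∈ A := by
      intro A hA x hx
      have : x ∈ ((A.subgroupOf L).map π).comap π := hx
      rw [comap_map_eq, QuotientGroup.ker_mk', sup_eq_left.2 (fun y hy => hA hy)] at this
      exact this
    have hq : HasNormalPComplement p (L ⧸ U') := by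
      refine frobenius_of_isStronglyClosed (hSyl.toSylow.mapSurjective hπ)
        (D := (D.subgroupOf L).map π) ⟨?_, ?_⟩ ?_ ?_
      · exact map_mono fun x hx => ⟨hD.1 hx, x.2⟩
      · rintro _ ⟨x, hx, rfl⟩ y hy
        obtain ⟨y, rfl⟩ := hπ y
        rw [← map_inv, ← map_mul, ← map_mul] at hy ⊢
        have h1 := hcomap _ (le_inf hUS le_normalizer) _ hy
        exact mem_map_of_mem π (hD.2 x hx y h1.1)
      · intro h0
        refine hc fun x hx => ?_
        have hxL : x ∈ L := centralizer_le_normalizer _ hx.2
        have : π ⟨x, hxL⟩ ∈ (D.subgroupOf L).map π := mem_map_of_mem π hx.1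
        rw [h0, mem_bot] at this
        exact (QuotientGroup.eq_one_iff (N := U') _).1 this
      · intro V hV hV1
        let V' := (V.comap π).map L.subtype
        have hUV : U ≤ V' := fun x hx => ⟨⟨x, le_normalizer hx⟩, by
          rw [SetLike.mem_coe, mem_comap]
          have : π ⟨x, le_normalizer hx⟩ = 1 := (QuotientGroup.eq_one_iff _).2 hx
          rw [this]; exact one_mem _, rfl⟩
        have hV'D : V' ≤ D := by
          rintro _ ⟨x, hx, rfl⟩
          exact hcomap D hUD x (hV hx)
        have hlt : U < V' := lt_of_le_of_ne hUV fun h0 => hV1 (eq_bot_iff.2 fun y hy => by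
          obtain ⟨y, rfl⟩ := hπ y
          have : (y : G) ∈ V' := ⟨y, hy, rfl⟩
          rw [← h0] at this
          exact (QuotientGroup.eq_one_iff _).2 this)
        refine hasNormalPComplement_of_le ?_ (hasNormalPComplement_map π
          (hasNormalPComplement_subgroupOf (K := L) (ih' V' hlt hV'D)))
        intro y hy
        obtain ⟨y, rfl⟩ := hπ y
        refine mem_map_of_mem π (mem_normalizer_of_conj_mem ?_)
        rintro _ ⟨x, hx, rfl⟩
        refine ⟨y * x * y⁻¹, ?_, rfl⟩
        rw [SetLike.mem_coe, mem_comap, map_mul, map_mul, map_inv]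
        exact (mem_normalizer_iff.1 hy _).1 hx
    rw [← hasNormalPComplement_pResidual_iff]
    refine hasNormalPComplement_of_ker_le_center (π.comp (pResidual p L).subtype) ?_ hq
    have hR : pResidual p L ≤ (centralizer (U : Set G)).subgroupOf L :=
      (closure_le _).2 fun m hm => hcent m m.2 (by rwa [orderOf_coe])
    intro x hx
    have hxU : ((x : L) : G) ∈ U := (QuotientGroup.eq_one_iff (N := U') _).1 hx
    refine mem_center_iff.2 fun y => Subtype.ext (Subtype.ext ?_)
    exact (mem_centralizer_iff.1 (hR y.2) _ hxU).symm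
  have := key _ ⊥ bot_le rfl
  exact hasNormalPComplement_of_eq_top (normalizer_eq_top _) this

end Cfsg.Agent.Transfer
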